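import Mathlib

/-!
# Ree's inequality, by linear algebra

For a group acting transitively on a finite set, elements `x y z` with `x * y * z = 1`, such that `x, y`
generate a transitive group, satisfy `rk x + rk y + rk z ≥ 2 (n - 1)`, where `rk g` is the rank of
`g - 1` on the permutation module; and `rk g + (number of orbits of ⟨g⟩) ≤ n`.
-/

set_option autoImplicit false
set_option linter.unusedSectionVars false
set_option linter.unusedVariables false
set_option linter.style.longLine false
set_option linter.unnecessarySimpa false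
set_option linter.style.haveILetI false

namespace Cfsg.Agent.Lib.Ree.Basic

open Subgroup Module

variable {G α : Type*} [Group G] [MulAction G α] [Fintype α] [DecidableEq α]

/-- Composition with the action. -/
noncomputable def T (g : G) : (α → ℚ) →ₗ[ℚ] (α → ℚ) := LinearMap.funLeft ℚ ℚ (fun a => g • a)

@[simp] theorem T_apply (g : G) (f : α → ℚ) (a : α) : T g f a = f (g • a) := rfl

/-- `T g - 1`. -/
noncomputable def D (g : G) : (α → ℚ) →ₗ[ℚ] (α → ℚ) := T g - LinearMap.id

@[simp] theorem D_apply (g : G) (f : α → ℚ) (a : α) : D g f a = f (g • a) - f a := rfl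

/-- The rank of `g - 1`. -/
noncomputable def rk (α : Type*) [MulAction G α] [Fintype α] [DecidableEq α] (g : G) : ℕ :=
  finrank ℚ (LinearMap.range (D (α := α) g))

theorem T_single (g : G) (c : α) : T g (Pi.single c (1 : ℚ)) = Pi.single (g⁻¹ • c) (1 : ℚ) := by
  funext a
  rw [T_apply, Pi.single_apply, Pi.single_apply]
  by_cases h : a = g⁻¹ • c
  · subst h
    simp
  · have h2 : g • a ≠ c := by
      intro h3
      apply h
      rw [← h3, inv_smul_smul]
    simp [h, h2]

theorem ree [Nonempty α] (x y z : G) (hxyz : x * y * z = 1)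
    (htr : ∀ a b : α, ∃ g ∈ closure ({x, y} : Set G), g • a = b) :
    2 * (Fintype.card α - 1) ≤ rk α x + rk α y + rk α z := by
  classical
  set Rx := LinearMap.range (D (α := α) x) with hRx
  set Ry := LinearMap.range (D (α := α) y) with hRy
  set Rz := LinearMap.range (D (α := α) z) with hRz
  let L : (α → ℚ) →ₗ[ℚ] (Rz × Ry × Rx) :=
    (D z).rangeRestrict.prod ((D y).rangeRestrict.prod (D x).rangeRestrict)
  let M : (Rz × Ry × Rx) →ₗ[ℚ] (α → ℚ) :=
    LinearMap.coprod Rz.subtype (LinearMap.coprod (T z ∘ₗ Ry.subtype) (T (y * z) ∘ₗ Rx.subtype))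
  have hML : ∀ v, M (L v) = 0 := by
    intro v
    funext a
    have e : M (L v) a = (v (z • a) - v a) + (v (y • z • a) - v (z • a)) +
        (v (x • (y * z) • a) - v ((y * z) • a)) := by
      show (v (z • a) - v a) + ((v (y • z • a) - v (z • a)) + (v (x • (y * z) • a) - v ((y * z) • a))) = _
      ring
    rw [e]
    have e2 : x • (y * z) • a = a := by
      rw [← mul_smul, ← mul_assoc, hxyz, one_smul]
    rw [e2, mul_smul]
    simp
  have h1 := LinearMap.finrank_range_add_finrank_ker M
  have h2 := LinearMap.finrank_range_add_finrank_ker L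
  rw [Module.finrank_prod, Module.finrank_prod] at h1
  rw [Module.finrank_fintype_fun_eq_card] at h2
  have h3 : finrank ℚ (LinearMap.range L) ≤ finrank ℚ (LinearMap.ker M) :=
    Submodule.finrank_mono (LinearMap.range_le_ker_iff.2 (LinearMap.ext hML))
  obtain ⟨a₀⟩ := ‹Nonempty α›
  -- the kernel of `L`
  have h4 : finrank ℚ (LinearMap.ker L) ≤ 1 := by
    have hle : LinearMap.ker L ≤ Submodule.span ℚ {(1 : α → ℚ)} := by
      intro v hv
      have hv' : L v = 0 := hv
      have hz : D z v = 0 := by
        have := congrArg (fun t : Rz × Ry × Rx => ((t.1 : Rz) : α → ℚ)) hv'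
        exact this
      have hy : D y v = 0 := by
        have := congrArg (fun t : Rz × Ry × Rx => ((t.2.1 : Ry) : α → ℚ)) hv'
        exact this
      have hx : D x v = 0 := by
        have := congrArg (fun t : Rz × Ry × Rx => ((t.2.2 : Rx) : α → ℚ)) hv'
        exact this
      have hinv : ∀ g ∈ closure ({x, y} : Set G), ∀ a, v (g • a) = v a := by
        intro g hg
        induction hg using Subgroup.closure_induction with
        | mem g hg =>
          rcases hg with rfl | rfl
          · intro a
            have := congrFun hx a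
            simpa [sub_eq_zero] using this
          · intro a
            have := congrFun hy a
            simpa [sub_eq_zero] using this
        | one => intro a; simp
        | mul g h _ _ hg hh =>
          intro a
          rw [mul_smul, hg, hh]
        | inv g _ hg =>
          intro a
          have := hg (g⁻¹ • a)
          rw [smul_inv_smul] at this
          exact this.symm
      have hc : v = (v a₀) • (1 : α → ℚ) := by
        funext a
        obtain ⟨g, hg, he⟩ := htr a₀ a
        simp only [Pi.smul_apply, Pi.one_apply, smul_eq_mul, mul_one]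
        rw [← he, hinv g hg]
      rw [hc]
      exact Submodule.smul_mem _ _ (Submodule.mem_span_singleton_self _)
    refine (Submodule.finrank_mono hle).trans ?_
    rw [finrank_span_singleton]
    exact fun h => one_ne_zero (congrFun h a₀)
  -- the image of `M`
  have h5 : Fintype.card α - 1 ≤ finrank ℚ (LinearMap.range M) := by
    set I := LinearMap.range M with hI
    have hI1 : ∀ w ∈ Rz, w ∈ I := by
      intro w hw
      refine ⟨(⟨w, hw⟩, 0, 0), ?_⟩
      simp [M]
    have hI2 : ∀ w ∈ Ry, T z w ∈ I := by
      intro w hw
      refine ⟨(0, ⟨w, hw⟩, 0), ?_⟩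
      simp [M]
    let δ : α → (α → ℚ) := fun c => Pi.single c (1 : ℚ)
    have hD : ∀ (g : G) (c : α), D g (δ c) = δ (g⁻¹ • c) - δ c := by
      intro g c
      show T g (Pi.single c (1 : ℚ)) - Pi.single c (1 : ℚ) = _
      rw [T_single]
    have hPz : ∀ b, δ (z • b) - δ b ∈ I := by
      intro b
      have h6 := hI1 _ (LinearMap.mem_range_self (D z) (δ (z • b)))
      rw [hD, inv_smul_smul] at h6
      have := I.neg_mem h6
      simpa using this
    have hPy0 : ∀ d, δ (z⁻¹ • d) - δ (z⁻¹ • y • d) ∈ I := by
      intro d
      have h6 := hI2 _ (LinearMap.mem_range_self (D y) (δ (y • d)))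
      rw [hD, inv_smul_smul, map_sub, T_single, T_single] at h6
      exact h6
    have hPy : ∀ b, δ (y • b) - δ b ∈ I := by
      intro b
      have e1 := hPz (z⁻¹ • y • b)
      rw [smul_inv_smul] at e1
      have e2 := I.neg_mem (hPy0 b)
      have e3 := I.neg_mem (hPz (z⁻¹ • b))
      rw [smul_inv_smul] at e3
      have := I.add_mem (I.add_mem e1 e2) e3
      have e : δ (y • b) - δ b = δ (y • b) - δ (z⁻¹ • y • b) + -(δ (z⁻¹ • b) - δ (z⁻¹ • y • b)) +
          -(δ b - δ (z⁻¹ • b)) := by abel
      rw [e]
      exact this
    have hmul : ∀ g h : G, (∀ b, δ (g • b) - δ b ∈ I) → (∀ b, δ (h • b) - δ b ∈ I) →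
        ∀ b, δ ((g * h) • b) - δ b ∈ I := by
      intro g h hg hh b
      have := I.add_mem (hg (h • b)) (hh b)
      rw [mul_smul]
      have e : δ (g • h • b) - δ b = δ (g • h • b) - δ (h • b) + (δ (h • b) - δ b) := by abel
      rw [e]
      exact this
    have hinv : ∀ g : G, (∀ b, δ (g • b) - δ b ∈ I) → ∀ b, δ (g⁻¹ • b) - δ b ∈ I := by
      intro g hg b
      have := I.neg_mem (hg (g⁻¹ • b))
      rw [smul_inv_smul] at this
      simpa using this
    have hPx : ∀ b, δ (x • b) - δ b ∈ I := by
      have e : x = (y * z)⁻¹ := by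
        rw [eq_inv_iff_mul_eq_one, ← mul_assoc, hxyz]
      rw [e]
      exact hinv _ (hmul _ _ hPy hPz)
    have hP : ∀ g ∈ closure ({x, y} : Set G), ∀ b, δ (g • b) - δ b ∈ I := by
      intro g hg
      induction hg using Subgroup.closure_induction with
      | mem g hg =>
        rcases hg with rfl | rfl
        · exact hPx
        · exact hPy
      | one =>
        intro b
        simp
      | mul g h _ _ hg hh => exact hmul g h hg hh
      | inv g _ hg => exact hinv g hg
    have hdiff : ∀ a b, δ a - δ b ∈ I := by
      intro a b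
      obtain ⟨g, hg, he⟩ := htr b a
      rw [← he]
      exact hP g hg b
    let σ : (α → ℚ) →ₗ[ℚ] ℚ := ∑ a, LinearMap.proj a
    have hσ : ∀ v, σ v = ∑ a, v a := by
      intro v
      simp [σ, LinearMap.sum_apply]
    have hker : LinearMap.ker σ ≤ I := by
      intro v hv
      have hv0 : ∑ a, v a = 0 := by
        rw [← hσ]
        exact hv
      have e : v = ∑ a, (v a) • (δ a - δ a₀) := by
        have e1 : ∑ a, (v a) • (δ a - δ a₀) = ∑ a, (v a) • δ a - (∑ a, v a) • δ a₀ := by
          rw [Finset.sum_smul, ← Finset.sum_sub_distrib]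
          apply Finset.sum_congr rfl
          intro a _
          rw [smul_sub]
        rw [e1, hv0, zero_smul, sub_zero]
        funext c
        simp only [Finset.sum_apply, Pi.smul_apply, smul_eq_mul, δ, Pi.single_apply, mul_ite, mul_one, mul_zero]
        simp
      rw [e]
      exact Submodule.sum_mem _ fun a _ => I.smul_mem _ (hdiff a a₀)
    have h6 := LinearMap.finrank_range_add_finrank_ker σ
    rw [Module.finrank_fintype_fun_eq_card] at h6
    have h7 : finrank ℚ (LinearMap.range σ) ≤ 1 := by
      have := Submodule.finrank_le (LinearMap.range σ)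
      rwa [Module.finrank_self] at this
    have h8 := Submodule.finrank_mono hker
    omega
  show 2 * (Fintype.card α - 1) ≤ finrank ℚ Rx + finrank ℚ Ry + finrank ℚ Rz
  omega

/-- The rank and the number of orbits. -/
theorem rk_add_orbits (g : G) [Fintype (MulAction.orbitRel.Quotient (zpowers g) α)] :
    rk α g + Fintype.card (MulAction.orbitRel.Quotient (zpowers g) α) ≤ Fintype.card α := by
  classical
  let q : α → MulAction.orbitRel.Quotient (zpowers g) α := fun a => Quotient.mk'' a
  have hq : Function.Surjective q := Quotient.mk''_surjective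
  let Φ : (MulAction.orbitRel.Quotient (zpowers g) α → ℚ) →ₗ[ℚ] (α → ℚ) := LinearMap.funLeft ℚ ℚ q
  have hinj : Function.Injective Φ := LinearMap.funLeft_injective_of_surjective ℚ ℚ q hq
  have hle : LinearMap.range Φ ≤ LinearMap.ker (D (α := α) g) := by
    rintro _ ⟨f, rfl⟩
    rw [LinearMap.mem_ker]
    funext a
    have e : q (g • a) = q a := by
      apply Quotient.sound'
      exact ⟨⟨g, mem_zpowers g⟩, rfl⟩
    show f (q (g • a)) - f (q a) = 0
    rw [e, sub_self]
  have h1 := LinearMap.finrank_range_add_finrank_ker (D (α := α) g)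
  rw [Module.finrank_fintype_fun_eq_card] at h1
  have h2 := Submodule.finrank_mono hle
  rw [LinearMap.finrank_range_of_inj hinj, Module.finrank_fintype_fun_eq_card] at h2
  show finrank ℚ (LinearMap.range (D (α := α) g)) + _ ≤ _
  omega

/-- Burnside's count of orbits of an element of prime order. -/
theorem orbits_formula (g : G) {p : ℕ} (hp : p.Prime) (hg : orderOf g = p)
    [Fintype (MulAction.orbitRel.Quotient (zpowers g) α)] (F : ℕ)
    (hF : (Finset.univ.filter fun a : α => g • a = a).card = F) :
    Fintype.card (MulAction.orbitRel.Quotient (zpowers g) α) * p = Fintype.card α + (p - 1) * F := by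
  classical
  haveI : Fact p.Prime := ⟨hp⟩
  have hZ : Nat.card (zpowers g) = p := by rw [Nat.card_zpowers, hg]
  haveI : Finite (zpowers g) := Nat.finite_of_card_ne_zero (by rw [hZ]; exact hp.ne_zero)
  letI : Fintype (zpowers g) := Fintype.ofFinite _
  have hZ' : Fintype.card (zpowers g) = p := by rwa [← Nat.card_eq_fintype_card]
  have hB := MulAction.sum_card_fixedBy_eq_card_orbits_mul_card_group (zpowers g) α
  rw [hZ'] at hB
  rw [← hB]
  have hfix : ∀ h : zpowers g, h ≠ 1 → Fintype.card (MulAction.fixedBy α h) = F := by
    intro h hh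
    rw [← hF, Fintype.card_subtype]
    congr 1
    ext a
    simp only [Finset.mem_filter, Finset.mem_univ, true_and, MulAction.mem_fixedBy]
    constructor
    · intro ha
      have hm : (⟨g, mem_zpowers g⟩ : zpowers g) ∈ zpowers h := mem_zpowers_of_prime_card hZ hh
      have hs : h ∈ MulAction.stabilizer (zpowers g) a := ha
      have := (zpowers_le.2 hs) hm
      exact this
    · intro ha
      have hs : (⟨g, mem_zpowers g⟩ : zpowers g) ∈ MulAction.stabilizer (zpowers g) a := ha
      have hm : h ∈ zpowers (⟨g, mem_zpowers g⟩ : zpowers g) := by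
        apply mem_zpowers_of_prime_card hZ
        intro h1
        have : g = 1 := congrArg Subtype.val h1
        rw [this, orderOf_one] at hg
        exact hp.one_lt.ne hg
      have := (zpowers_le.2 hs) hm
      exact this
  have hone : Fintype.card (MulAction.fixedBy α (1 : zpowers g)) = Fintype.card α := by
    rw [Fintype.card_subtype]
    congr 1
    ext a
    simp
  rw [← Finset.add_sum_erase Finset.univ _ (Finset.mem_univ (1 : zpowers g)), hone]
  congr 1
  rw [Finset.sum_congr rfl (fun h hh => hfix h (Finset.ne_of_mem_erase hh)), Finset.sum_const,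
    Finset.card_erase_of_mem (Finset.mem_univ _), Finset.card_univ, hZ', smul_eq_mul]

end Cfsg.Agent.Lib.Ree.Basic
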